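import Cfsg.Agent.H817.DPi.Def

/-!
# Transport of `Row` along isomorphisms, also between universes (S4247, helper640)
-/

set_option autoImplicit false

namespace Cfsg.Agent.H640.DPU

open Subgroup Cfsg Cfsg.Agent.H988.CPi Cfsg.Agent.H571.RV Cfsg.Agent.H817.DPi

universe u v

variable {π : Set ℕ}

section

variable {X : Type u} {Y : Type v} [Group X] [Group Y] (e : X ≃* Y)

include e

theorem isPiHall_map {P : Subgroup X} (h : IsPiHall π P) : IsPiHall π (P.map e.toMonoidHom) := by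
  have h1 : Nat.card (P.map e.toMonoidHom) = Nat.card P :=
    Subgroup.card_map_of_injective (f := e.toMonoidHom) e.injective
  have h2 : (P.map e.toMonoidHom).index = P.index := Subgroup.index_map_equiv P e
  refine ⟨?_, ?_⟩
  · rw [h1]; exact h.1
  · rw [h2]; exact h.2

theorem isNilpotent_map {P : Subgroup X} (h : Group.IsNilpotent P) : Group.IsNilpotent (P.map e.toMonoidHom) := by
  have := h
  exact Group.nilpotent_of_mulEquiv (e.subgroupMap P)

theorem isNilpotent_of_map {P : Subgroup X} (h : Group.IsNilpotent (P.map e.toMonoidHom)) : Group.IsNilpotent P := by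
  have : Group.IsNilpotent (P.map (e : X →* Y)) := h
  exact Group.nilpotent_of_mulEquiv (e.subgroupMap P).symm

theorem nilHall_congr (h : NilHall π X) : NilHall π Y := by
  obtain ⟨H, h1, h2⟩ := h
  exact ⟨_, isPiHall_map e h1, isNilpotent_map e h2⟩

theorem rankOne_congr {p : ℕ} (h : RankOne p X) : RankOne p Y := by
  rcases h with ⟨F, i1, i2, i3, h1, ⟨f⟩⟩ | ⟨F, i1, i2, i3, q, h1, h2, ⟨f⟩⟩ | ⟨h1, K, i1, i2, m, h2, h3, ⟨f⟩⟩
  · exact Or.inl ⟨F, i1, i2, i3, h1, ⟨e.symm.trans f⟩⟩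
  · exact Or.inr (Or.inl ⟨F, i1, i2, i3, q, h1, h2, ⟨e.symm.trans f⟩⟩)
  · exact Or.inr (Or.inr ⟨h1, K, i1, i2, m, h2, h3, ⟨e.symm.trans f⟩⟩)

theorem two_congr {r s : ℕ} (h : Two π r s X) : Two π r s Y := fun l hl hp hd =>
  h l hl hp (by rwa [Nat.card_congr e.toEquiv])

theorem lx_congr (h : LX π X) : LX π Y := by
  rcases h with ⟨p, h1, h2, h3⟩ | ⟨⟨f⟩⟩ | ⟨⟨f⟩, h1⟩ | ⟨⟨f⟩, h1⟩ | ⟨⟨f⟩, h1⟩
  · exact Or.inl ⟨p, h1, h2, rankOne_congr e h3⟩
  · exact Or.inr (Or.inl ⟨e.symm.trans f⟩)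
  · exact Or.inr (Or.inr (Or.inl ⟨⟨e.symm.trans f⟩, two_congr e h1⟩))
  · exact Or.inr (Or.inr (Or.inr (Or.inl ⟨⟨e.symm.trans f⟩, two_congr e h1⟩)))
  · exact Or.inr (Or.inr (Or.inr (Or.inr ⟨⟨e.symm.trans f⟩, two_congr e h1⟩)))

/-- **the class is invariant under isomorphisms** -/
theorem cls_congr (h : Cls π X) : Cls π Y := h.imp (nilHall_congr e) (lx_congr e)

end

section

variable {S : Type u} {S' : Type v} [Group S] [Group S'] (e : S ≃* S')

theorem congr_apply (a : MulAut S) (x : S) : MulAut.congr e a (e x) = e (a x) := by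
  show e (a (e.symm (e x))) = e (a x)
  rw [e.symm_apply_apply]

theorem congr_conj (x : S) : MulAut.congr e (MulAut.conj x) = MulAut.conj (e x) := by
  ext y
  obtain ⟨y, rfl⟩ := e.surjective y
  rw [congr_apply, MulAut.conj_apply, MulAut.conj_apply, map_mul, map_mul, map_inv]

theorem inn_map : (inn S).map (MulAut.congr e).toMonoidHom = inn S' := by
  ext g
  constructor
  · rintro ⟨_, ⟨x, rfl⟩, rfl⟩
    exact ⟨e x, (congr_conj e x).symm⟩
  · rintro ⟨y, rfl⟩
    obtain ⟨x, rfl⟩ := e.surjective y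
    exact ⟨_, ⟨x, rfl⟩, congr_conj e x⟩

/-- **the configuration is invariant under isomorphisms** -/
theorem cfg_map {P : Subgroup S} {K B : Subgroup (MulAut S)} (h : Cfg π P K B) :
    Cfg π (P.map e.toMonoidHom) (K.map (MulAut.congr e).toMonoidHom) (B.map (MulAut.congr e).toMonoidHom) where
  two := h.two
  hall := isPiHall_map e h.hall
  nnil := fun h1 => h.nnil (isNilpotent_of_map e h1)
  piK := by
    rw [Subgroup.card_map_of_injective (f := (MulAut.congr e).toMonoidHom) (MulAut.congr e).injective]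
    exact h.piK
  piB := by
    rw [Subgroup.card_map_of_injective (f := (MulAut.congr e).toMonoidHom) (MulAut.congr e).injective]
    exact h.piB
  fix := by
    rintro _ ⟨k, hk, rfl⟩ _ ⟨x, hx, rfl⟩
    have h1 := congr_apply e k x
    rw [h.fix k hk x hx] at h1
    exact h1
  sup := by
    rw [← inn_map e, ← Subgroup.map_sup, ← Subgroup.map_sup, h.sup]
  fac := by
    rw [← inn_map e, ← Subgroup.map_sup]
    rintro _ ⟨g, hg, rfl⟩
    obtain ⟨x, hx, k, hk, b, hb, rfl⟩ := h.fac g hg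
    refine ⟨e x, ⟨x, hx, rfl⟩, MulAut.congr e k, ⟨k, hk, rfl⟩, MulAut.congr e b, ⟨b, hb, rfl⟩, ?_⟩
    rw [← congr_conj e x]
    show MulAut.congr e (MulAut.conj x * k * b) = _
    rw [map_mul, map_mul]

theorem ih_map {P : Subgroup S} {K : Subgroup (MulAut S)} (h : IH π P K) :
    IH π (P.map e.toMonoidHom) (K.map (MulAut.congr e).toMonoidHom) := by
  intro H' hH' hP hK X _ _ _ hna f hf
  have hcoe : ∀ y : (H'.comap e.toMonoidHom : Subgroup S), e y ∈ H' := fun y => y.2
  let m : Shrink.{u} X ≃* X := Shrink.mulEquiv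
  have hX : IsSimpleGroup (Shrink.{u} X) := m.isSimpleGroup
  have h1 := h (H'.comap e.toMonoidHom) ?_ ?_ ?_ (Shrink.{u} X)
  · have h2 := h1 (fun hc => hna ⟨⟨fun a b => ?_⟩⟩) (m.symm.toMonoidHom.comp
      (f.comp ((e.toMonoidHom.comp (H'.comap e.toMonoidHom).subtype).codRestrict H' hcoe))) ?_
    · exact cls_congr m h2
    · have h3 := hc.is_comm.comm (m.symm a) (m.symm b)
      rw [← map_mul, ← map_mul] at h3
      exact m.symm.injective h3
    · intro x
      obtain ⟨y, hy⟩ := hf (m x)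
      have hy' : e (e.symm y) ∈ H' := by rw [e.apply_symm_apply]; exact y.2
      refine ⟨⟨e.symm y, hy'⟩, ?_⟩
      have h4 : ((e.toMonoidHom.comp (H'.comap e.toMonoidHom).subtype).codRestrict H' hcoe) ⟨e.symm y, hy'⟩ = y :=
        Subtype.ext (e.apply_symm_apply _)
      show m.symm (f (((e.toMonoidHom.comp (H'.comap e.toMonoidHom).subtype).codRestrict H' hcoe)
        ⟨e.symm y, hy'⟩)) = x
      rw [h4, hy, MulEquiv.symm_apply_apply]
  · intro h2
    apply hH'
    rw [eq_top_iff]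
    intro y _
    obtain ⟨x, rfl⟩ := e.surjective y
    have h3 : x ∈ H'.comap e.toMonoidHom := by rw [h2]; trivial
    exact h3
  · intro x hx
    have h2 := mem_normalizer_iff.1 (hP ⟨x, hx, rfl⟩)
    rw [mem_normalizer_iff]
    intro y
    have h3 := h2 (e y)
    have h4 : e.toMonoidHom x * e y * (e.toMonoidHom x)⁻¹ = e (x * y * x⁻¹) := by
      rw [map_mul, map_mul, map_inv]; rfl
    rw [h4] at h3
    exact h3
  · intro k hk
    have h2 : H'.map ((MulAut.congr e k : MulAut S') : S' ≃* S').toMonoidHom = H' := hK ⟨k, hk, rfl⟩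
    rw [mem_stab]
    have h3 : ∀ x, e x ∈ H' → e (k x) ∈ H' := by
      intro x hx
      rw [← congr_apply e k x, ← h2]
      exact ⟨_, hx, rfl⟩
    have h3' : ∀ x, e (k x) ∈ H' → e x ∈ H' := by
      intro x hx
      rw [← congr_apply e k x, ← h2] at hx
      obtain ⟨y, hy, hxy⟩ := hx
      rwa [← (MulAut.congr e k).injective hxy]
    ext x
    constructor
    · rintro ⟨y, hy, rfl⟩
      exact h3 y hy
    · intro hx
      refine ⟨k.symm x, ?_, k.apply_symm_apply x⟩
      show e (k.symm x) ∈ H'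
      apply h3'
      rw [k.apply_symm_apply]
      exact hx

/-- **`Row` is invariant under isomorphisms** (also between universes). -/
theorem row_congr (e : S ≃* S') (h : Row π S') : Row π S := fun _ _ _ h1 h2 =>
  lx_congr e.symm (h _ _ _ (cfg_map e h1) (ih_map e h2))

end

end Cfsg.Agent.H640.DPU
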